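import Cfsg.Agent.Lib.T3.CoJ

/-! The third Conway group: the standard component problem for `2.Sp₆(2)` (helper3). -/

set_option autoImplicit false
set_option maxRecDepth 100000

namespace Cfsg.Lib.T3.Co

open Cfsg.Lib.Calc Cfsg.Lib.Grp Cfsg.Lib.T2 Cfsg.Lib.T3 Subgroup
open Cfsg.Lib.McR (zz uu yy)

variable {G : Type*} [Group G] {γ : ℕ → G} {g x k l m r : G}

/-- the centraliser of `L` -/
abbrev KL (γ : ℕ → G) : Subgroup G := centralizer (genW γ wH : Set G)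

/-- `L` is standard -/
structure St (γ : ℕ → G) : Prop where
  g : Gf T γ 1 []
  d : ∀ n, n * zz γ = zz γ * n → ∃ l ∈ genW γ wH, ∃ k ∈ KL γ, n = l * k
  t : ∀ x ∈ KL γ, x * x = 1 → x ≠ 1 → ∀ g, g * x * g⁻¹ ∈ KL γ → g * zz γ = zz γ * g

/-- `g` conjugates `z` to another element of its centraliser -/
structure Ga (γ : ℕ → G) (g : G) : Prop where
  c : g * zz γ * g⁻¹ * zz γ = zz γ * (g * zz γ * g⁻¹)
  n : g * zz γ ≠ zz γ * g

theorem Ga.inv (a : Ga γ g) : Ga γ g⁻¹ := ⟨by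
  calc _ = g⁻¹ * (zz γ * (g * zz γ * g⁻¹)) * g := by group
    _ = _ := by rw [← a.c]; group, fun e => a.n (by simpa using (Commute.inv_left e).eq)⟩

theorem cc {c x y : G} (h : x * y = y * x) : c * x * c⁻¹ * (c * y * c⁻¹) = c * y * c⁻¹ * (c * x * c⁻¹) := by
  rw [conj_mul, conj_mul, h]

theorem cc' {c x y : G} (h : x * (c * y * c⁻¹) = c * y * c⁻¹ * x) : c⁻¹ * x * c * y = y * (c⁻¹ * x * c) := by
  calc _ = c⁻¹ * (x * (c * y * c⁻¹)) * c := by group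
    _ = _ := by rw [h]; group

theorem lk_mul {l k l' k' : G} (a : k ∈ KL γ) (b : l' ∈ genW γ wH) : l * k * (l' * k') = l * l' * (k * k') := by
  rw [mul_assoc, ← mul_assoc k, ← a _ b]; group

namespace St

variable (J : St γ)
include J

theorem zK : zz γ ∈ KL γ := fun _ h => cL J.g h

theorem cK (h : k ∈ KL γ) : k * zz γ = zz γ * k := (h _ (zL J.g)).symm

theorem z2 : zz γ * zz γ = 1 := J.g.eq

theorem z1 : zz γ ≠ 1 := J.g.ne

theorem inK (h : x = 1 ∨ x = zz γ) : x ∈ KL γ := h.elim (fun e => e ▸ one_mem _) fun e => e ▸ J.zK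

theorem nK {n : G} (h : n * zz γ = zz γ * n) (a : k ∈ KL γ) : n * k * n⁻¹ ∈ KL γ := by
  obtain ⟨l, b, c, d, rfl⟩ := J.d n h
  have := mul_mem (mul_mem d a) (inv_mem d)
  rwa [← cj_of (this l b), ← mul_assoc, ← mul_assoc, mul_assoc _ c⁻¹, ← mul_inv_rev] at this

theorem ga (a : Ga γ g) (h : l ∈ genW γ wH) : Ga γ (l * g) := ⟨by
  have := cc (c := l) a.c
  rwa [cj_of (cL J.g h), ← mul_assoc l, ← mul_assoc l, mul_assoc _ g⁻¹, ← mul_inv_rev] at this,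
  fun e => a.n (mul_left_cancel (a := l) (by rw [← mul_assoc, e, ← mul_assoc, ← mul_assoc, cL J.g h]))⟩

theorem sqZ (a : m ∈ genW γ wH) (b : k ∈ KL γ) (h : m * k * (m * k) ∈ KL γ) : m * m = 1 ∨ m * m = zz γ :=
  LK J.g (mul_mem a a) (((KL γ).mul_mem_cancel_right (mul_mem b b)).1 (lk_mul b a ▸ h))

theorem U (a : Ga γ g) (b : x ∈ KL γ) (c : x * x = 1) (d : x ≠ 1) (e : g * x * g⁻¹ * zz γ = zz γ * (g * x * g⁻¹)) :
    x = zz γ := by
  obtain ⟨m, m1, k, k1, f⟩ := J.d _ e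
  obtain ⟨l, l1, j, j1, i⟩ := J.d _ a.c
  have s := J.sqZ m1 k1 (by rw [← f, conj_mul, c, mul_one, mul_inv_cancel]; exact one_mem _)
  have n : m * l = 1 ∨ m * l = zz γ → x = zz γ := fun h => by
    by_contra o
    refine a.n (J.t _ (mul_mem b J.zK) ?_ (fun p => o ?_) g ?_)
    · rw [mul_assoc, ← mul_assoc (zz γ), ← J.cK b, mul_assoc, J.z2, mul_one, c]
    · rw [eq_inv_of_mul_eq_one_left p, inv_eq_of_mul_eq_one_left J.z2]
    · rw [← conj_mul, f, i, lk_mul k1 l1]; exact mul_mem (J.inK h) (mul_mem k1 j1)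
  rcases F1 J.g m1 s l1 (fun y p q => by
    have := J.t x b c d (g⁻¹ * y * g) (by
      rw [cj_of (cc' (by rw [f, ← mul_assoc, q, mul_assoc, k1 y p, mul_assoc]))]; exact b)
    have := cc (c := g) this
    rw [i, show g * (g⁻¹ * y * g) * g⁻¹ = y by group, mul_assoc l, ← j1 y p, ← mul_assoc, ← mul_assoc] at this
    exact mul_right_cancel this) with h | h | h | h
  · exact absurd (J.t x b c d g (f ▸ mul_mem (J.inK h) k1)) a.n
  · exact absurd (J.t _ J.zK J.z2 J.z1 g (i ▸ mul_mem (J.inK h) j1)) a.n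
  · exact n (h ▸ s)
  · refine n ?_
    rw [h, ← mul_assoc, cL J.g m1, mul_assoc]
    exact s.symm.imp (fun p => by rw [p, J.z2]) fun p => by rw [p, mul_one]

theorem V1 (a : Ga γ g) (b : r ∈ KL γ) (c : r * r = zz γ) (e : g * r * g⁻¹ * zz γ = zz γ * (g * r * g⁻¹)) :
    g * zz γ * g⁻¹ ∈ genW γ wH := by
  have B := gf_B J.g
  obtain ⟨m, m1, k, k1, f⟩ := J.d _ e
  have s : ∀ {g m}, m ∈ genW γ wH → g * r * g⁻¹ = m * k → g * zz γ * g⁻¹ = m * m * (k * k) := fun m1 f => by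
    rw [← c, ← conj_mul, f, lk_mul k1 m1]
  have s4 := J.sqZ (mul_mem m1 m1) (mul_mem k1 k1) (by rw [← s m1 f, conj_mul, J.z2, mul_one, mul_inv_cancel]; exact one_mem _)
  obtain ⟨l, l1, l2⟩ := exists_conj_le_of_odd (H := genW γ (M.ws 1)) (K := genW γ wH) (by
    have := relIndex_mul_card (ov_le J.g.zero (ss := M.ws 1) (ts := wH))
    rw [B.card 1 (n := 9216), show Nat.card (genW γ wH) = _ from J.g.card 1 (n := 2903040)] at this
    omega) (isPGroup_zpowers (x := m) (k := 3) (by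
      calc _ = m * m * (m * m) * (m * m * (m * m)) := by
            change m ^ 8 = _; simp only [pow_succ, pow_zero, one_mul, mul_assoc]
        _ = 1 := by rcases s4 with d | d <;> rw [d] <;> exact B.eq)) (zpowers_le.2 m1)
  have l2 := l2 m (mem_zpowers m)
  have f' : l * g * r * (l * g)⁻¹ = l * m * l⁻¹ * k := by
    calc _ = l * (g * r * g⁻¹) * l⁻¹ := by group
      _ = _ := by rw [f, mul_assoc (l * m), k1 _ (inv_mem l1)]; group
  have s4 : l * m * l⁻¹ * (l * m * l⁻¹) * (l * m * l⁻¹ * (l * m * l⁻¹)) = 1 ∨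
      l * m * l⁻¹ * (l * m * l⁻¹) * (l * m * l⁻¹ * (l * m * l⁻¹)) = zz γ := s4.imp
    (fun p => by rw [conj_mul, conj_mul, p, mul_one, mul_inv_cancel]) fun p => by rw [conj_mul, conj_mul, p, cj_of (cL J.g l1)]
  suffices h : l * g * zz γ * (l * g)⁻¹ ∈ genW γ wH by
    simpa [mul_assoc] using mul_mem (mul_mem (inv_mem l1) h) l1
  have a := J.ga a l1
  generalize l * g = g at f' a
  generalize l * m * l⁻¹ = m at f' l2 s4
  have m1 := bL J.g 1 l2
  have s := s m1 f'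
  have n : ¬ (m * m = 1 ∨ m * m = zz γ) := fun h =>
    a.n (J.t _ J.zK J.z2 J.z1 g (s ▸ mul_mem (J.inK h) (mul_mem k1 k1)))
  obtain ⟨e, e1, e2, e3, e4⟩ := F2 J.g l2 (not_or.1 n).1 (not_or.1 n).2 s4
  have p := J.nK (cc' (c := g) (x := e) (y := zz γ) (by
    rw [s, ← mul_assoc, e2, mul_assoc, mul_mem k1 k1 e e1, ← mul_assoc])) b
  have q : g * (g⁻¹ * e * g * r * (g⁻¹ * e * g)⁻¹ * r⁻¹) * g⁻¹ = e * m * e⁻¹ * m⁻¹ := by
    calc _ = e * (g * r * g⁻¹) * e⁻¹ * (g * r * g⁻¹)⁻¹ := by group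
      _ = _ := by rw [f', mul_assoc e, mul_assoc m, ← k1 _ (inv_mem e1)]; group
  have p := mul_mem p (inv_mem b)
  have o : e * m * e⁻¹ * m⁻¹ ∈ genW γ wH := mul_mem (mul_mem (mul_mem e1 m1) (inv_mem e1)) (inv_mem m1)
  have e3 : e * m * e⁻¹ * m⁻¹ ≠ 1 := fun h => e3 (mul_inv_eq_iff_eq_mul.1 (mul_inv_eq_one.1 h))
  generalize e * m * e⁻¹ * m⁻¹ = n at q o e3 e4
  generalize g⁻¹ * e * g * r * (g⁻¹ * e * g)⁻¹ * r⁻¹ = x at p q
  subst q
  by_cases h : x * x = 1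
  · exact J.U a p h (mt conj_eq_one_iff.2 e3) (cL J.g o) ▸ o
  · have o := mul_mem o o
    rw [conj_mul] at o
    refine J.U a (mul_mem p p) ?_ h (cL J.g o) ▸ o
    rw [conj_pow, conj_eq_one_iff] at e4
    simpa only [pow_succ, pow_zero, one_mul, mul_assoc] using e4

variable [Finite G]

theorem V2 (a : Ga γ g) (h : ∀ k ∈ KL γ, g * k * g⁻¹ * zz γ = zz γ * (g * k * g⁻¹)) (b : r ∈ KL γ) (c : r * r = zz γ)
    (e : g * zz γ * g⁻¹ = uu γ ∨ g * zz γ * g⁻¹ = ww γ) : False := by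
  have B := gf_B J.g
  have v : g * zz γ * g⁻¹ ∈ genW γ wH := by rcases e with e | e <;> rw [e] <;> exact bL J.g 1 B.mem
  let Y : Subgroup G :=
    { carrier := {m | m ∈ genW γ wH ∧ ∃ k ∈ KL γ, g⁻¹ * (m * k) * g ∈ KL γ}
      one_mem' := ⟨one_mem _, 1, one_mem _, by simp⟩
      mul_mem' := by
        rintro m n ⟨m1, k, k1, k2⟩ ⟨n1, j, j1, j2⟩
        refine ⟨mul_mem m1 n1, k * j, mul_mem k1 j1, ?_⟩
        rw [← lk_mul k1 n1]; simpa [mul_assoc] using mul_mem k2 j2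
      inv_mem' := by
        rintro m ⟨m1, k, k1, k2⟩
        refine ⟨inv_mem m1, k⁻¹, inv_mem k1, ?_⟩
        rw [← mul_inv_rev, ← k1 m m1]; simpa [mul_assoc] using inv_mem k2 }
  have y : ∀ {k}, k ∈ KL γ → ∃ n ∈ Y, ∃ j ∈ KL γ, g * k * g⁻¹ = n * j := fun {k} p =>
    let ⟨n, n1, j, j1, f⟩ := J.d _ (h k p); ⟨n, ⟨n1, j, j1, by rw [← f]; simpa [mul_assoc] using p⟩, j, j1, f⟩
  have yc : ∀ {m}, m ∈ Y → m * (g * zz γ * g⁻¹) = g * zz γ * g⁻¹ * m := by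
    rintro m ⟨m1, k, k1, k2⟩
    have := cc (c := g) (J.cK k2)
    rw [show g * (g⁻¹ * (m * k) * g) * g⁻¹ = m * k by group, mul_assoc m, ← k1 _ v, ← mul_assoc, ← mul_assoc _ m] at this
    exact mul_right_cancel this
  obtain ⟨m, m1, k, k1, f⟩ := y b
  have s : m * m = g * zz γ * g⁻¹ ∨ m * m = g * zz γ * g⁻¹ * zz γ := by
    have : g * zz γ * g⁻¹ = m * m * (k * k) := by rw [← c, ← conj_mul, f, lk_mul k1 m1.1]
    exact (LK J.g (mul_mem (inv_mem v) (mul_mem m1.1 m1.1)) (by rw [this]; simpa [mul_assoc] using inv_mem (mul_mem k1 k1))).imp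
      (fun p => (inv_mul_eq_one.1 p).symm) inv_mul_eq_iff_eq_mul.1
  rcases e with e | e <;> rw [e] at yc s
  swap
  · exact not_or.2 ((M_g6 B :) m ((M_kB B :) m (memW J.g m1.1 (yc m1)) (yc m1))) s
  have t : ∀ {x}, x ∈ genW γ (M.ws 2) → g⁻¹ * x * g * zz γ = zz γ * (g⁻¹ * x * g) := fun p => cc' (e.symm ▸ B.comm p)
  refine F3 J.g (Y := Y) ⟨zL J.g, zz γ, J.zK, by simp [J.z2]⟩ ?_ ?_ ?_ m1 (mC' J.g m1.1 (yc m1)) s
  · rintro x p n ⟨n1, j, j1, j2⟩
    have q := bL J.g 2 p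
    refine ⟨mul_mem (mul_mem q n1) (inv_mem q), j, j1, ?_⟩
    rw [mul_assoc (x * n), j1 _ (inv_mem q)]
    simpa [mul_assoc] using J.nK (t p) j2
  · rintro n ⟨n1, j, j1, j2⟩ p
    obtain ⟨x, q⟩ : ∃ x, g * x * g⁻¹ = n * j := ⟨g⁻¹ * (n * j) * g, by group⟩
    rw [← q, show g⁻¹ * (g * x * g⁻¹) * g = x by group] at j2
    have od : Odd (orderOf (x * x)) := Nat.not_even_iff_odd.1 fun ⟨i, o⟩ => by
      have := orderOf_pos (x * x)
      refine a.n (J.t ((x * x) ^ i) (pow_mem (mul_mem j2 j2) i) (by rw [← pow_add, ← o, pow_orderOf_eq_one])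
        (pow_ne_one_of_lt_orderOf (by omega) (by omega)) g ?_)
      rw [← conj_pow, ← conj_mul, q, lk_mul j1 n1]
      exact pow_mem (mul_mem (J.inK p) (mul_mem j1 j1)) i
    have o2 := pow_orderOf_eq_one (x * x)
    generalize orderOf (x * x) = o at *
    rw [(Commute.refl x).mul_pow] at o2
    have q : g * x ^ o * g⁻¹ = n ^ o * j ^ o := by rw [← conj_pow, q, Commute.mul_pow (j1 n n1)]
    have w : ∀ {u}, u ∈ genW γ wH → u = n ^ o * j ^ o → n ^ o = u ∨ n ^ o = zz γ * u := fun u1 u2 =>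
      (LK J.g (mul_mem (pow_mem n1 o) (inv_mem u1)) (by
        rw [u2, pow_mem j1 o _ (pow_mem n1 o)]; simpa [mul_assoc] using inv_mem (pow_mem j1 o))).imp
        mul_inv_eq_one.1 mul_inv_eq_iff_eq_mul.1
    have i : n ^ o = 1 ∨ n ^ o = zz γ ∨ n ^ o = uu γ ∨ n ^ o = zz γ * uu γ := by
      by_cases i : x ^ o = 1
      · exact (w (one_mem _) (by rw [← q, i, mul_one, mul_inv_cancel])).imp_right fun i => Or.inl (i.trans (mul_one _))
      · exact Or.inr (Or.inr (w (e ▸ v) (by rw [← q, J.U a (pow_mem j2 o) o2 i (h _ (pow_mem j2 o)), e])))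
    have i2 : n * n = 1 := by
      rw [← pow_odd_of_sq (a := n * n) (by rcases p with p | p <;> rw [p] <;> exact B.eq) od, (Commute.refl n).mul_pow]
      rcases i with i | i | i | i <;> rw [i] <;> exact B.eq
    rwa [pow_odd_of_sq i2 od] at i
  · obtain ⟨l, l1, i, i1, p⟩ := J.d _ (t (x := yy γ) B.mem)
    obtain ⟨n, n1, j, j1, q⟩ := y i1
    refine ⟨n, n1, mC' J.g n1.1 (yc n1), ?_⟩
    rintro x ⟨x1, k, k1, k2⟩
    have y1 : yy γ ∈ genW γ wH := bL J.g 1 B.mem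
    have o : yy γ * x * (yy γ)⁻¹ * k = n * x * n⁻¹ * (j * k * j⁻¹) := by
      calc _ = g * (g⁻¹ * yy γ * g * (g⁻¹ * (x * k) * g) * (g⁻¹ * yy γ * g)⁻¹) * g⁻¹ := by
            rw [mul_assoc (_ * x), k1 _ (inv_mem y1)]; group
        _ = g * (l * (i * (g⁻¹ * (x * k) * g) * i⁻¹) * l⁻¹) * g⁻¹ := by rw [p]; group
        _ = g * i * g⁻¹ * (x * k) * (g * i * g⁻¹)⁻¹ := by rw [cj_of (mul_mem (mul_mem i1 k2) (inv_mem i1) l l1)]; group
        _ = n * x * (j * k * j⁻¹ * n⁻¹) := by rw [q, lk_mul j1 x1]; group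
        _ = _ := by rw [← mul_mem (mul_mem j1 k1) (inv_mem j1) _ (inv_mem n1.1), ← mul_assoc]
    refine (LK J.g (mul_mem (inv_mem (mul_mem (mul_mem y1 x1) (inv_mem y1))) (mul_mem (mul_mem n1.1 x1) (inv_mem n1.1)))
      ?_).imp (fun p => mul_inv_eq_iff_eq_mul.1 (inv_mul_eq_one.1 p).symm)
        fun p => mul_inv_eq_iff_eq_mul.1 (inv_mul_eq_iff_eq_mul.1 p)
    rw [← mul_inv_eq_iff_eq_mul.2 o.symm]
    simpa [mul_assoc] using mul_mem k1 (inv_mem (mul_mem (mul_mem j1 k1) (inv_mem j1)))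

omit [Finite G] J in
theorem cen (h : g * zz γ * g⁻¹ ∈ genW γ wH) : ∀ k ∈ KL γ, g⁻¹ * k * g⁻¹⁻¹ * zz γ = zz γ * (g⁻¹ * k * g⁻¹⁻¹) :=
  fun _ p => (inv_inv g).symm ▸ cc' (p _ h).symm

theorem V (a : Ga γ g) (b : r ∈ KL γ) (c : r * r = zz γ) (e : g * r * g⁻¹ * zz γ = zz γ * (g * r * g⁻¹)) : False := by
  have h := J.V1 a b c e
  have k := cen (J.V1 a.inv b c (cen h r b))
  rw [inv_inv] at k
  rcases cls2 J.g h (by rw [conj_mul, J.z2, mul_one, mul_inv_cancel]) with f | f | ⟨l, l1, f⟩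
  · exact J.z1 (conj_eq_one_iff.1 f)
  · exact a.n (mul_inv_eq_iff_eq_mul.1 f)
  refine J.V2 (J.ga a l1) (fun x p => ?_) b c (by simpa only [mul_assoc, mul_inv_rev] using f)
  have := cc (c := l) (k x p)
  rw [cj_of (cL J.g l1)] at this
  simpa only [mul_assoc, mul_inv_rev] using this

theorem ch (a : Ga γ g) (hO : centralizerPPrimeCore 2 (zz γ) = ⊥) : CH γ := by
  have h : g * zz γ * g⁻¹ ∈ genW γ wH := by
    obtain ⟨l, l1, k, k1, f⟩ := J.d _ a.c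
    have e : g⁻¹ * k * g⁻¹⁻¹ * zz γ = zz γ * (g⁻¹ * k * g⁻¹⁻¹) :=
      (inv_inv g).symm ▸ cc' (by rw [f, ← mul_assoc, k1 l l1])
    have s : l * l * (k * k) = 1 := by rw [← lk_mul k1 l1, ← f, conj_mul, J.z2, mul_one, mul_inv_cancel]
    rw [f]
    rcases LK J.g (d := k * k) (eq_inv_of_mul_eq_one_right s ▸ inv_mem (mul_mem l1 l1)) (mul_mem k1 k1) with s | s
    · by_cases p : k = 1
      · rw [p, mul_one]; exact l1
      · exact mul_mem l1 (J.U a.inv k1 s p e ▸ zL J.g)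
    · exact (J.V a.inv k1 s e).elim
  have h := cen h
  let N : Subgroup (KL γ) := zpowers ⟨_, J.zK⟩
  have n : ∀ {x}, x ∈ N → x = 1 ∨ x.1 = zz γ := fun {x} p => (LK J.g (by
    obtain ⟨i, rfl⟩ := p; exact zpow_mem (zL J.g) i) x.2).imp_left fun q => Subtype.ext q
  have : N.Normal := ⟨fun x p y => by
    rcases n p with q | q
    · simp [q]
    · rwa [cj_of (Subtype.ext (by simpa [q] using J.cK y.2) : y * x = x * y)]⟩
  have c : Nat.card N = 2 := (Nat.card_zpowers _).trans (orderOf_eq_prime (Subtype.ext ((sq _).trans J.z2)) (mt Subtype.ext_iff.1 J.z1))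
  have o : ¬ 2 ∣ N.index := fun p => by
    obtain ⟨x, p⟩ := exists_prime_orderOf_dvd_card' (G := KL γ ⧸ N) 2 p
    obtain ⟨x, rfl⟩ := QuotientGroup.mk_surjective x
    have q : x ∉ N := fun q => by simp [(QuotientGroup.eq_one_iff x).2 q] at p
    rcases n ((QuotientGroup.eq_one_iff (x * x)).1 (sq2 p)) with s | s
    · exact q ((Subtype.ext (J.U a.inv x.2 (congrArg Subtype.val s) (fun e => q ((Subtype.ext e : x = 1) ▸ one_mem _))
        (h _ x.2)) : x = ⟨_, J.zK⟩) ▸ mem_zpowers _)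
    · exact J.V a.inv x.2 s (h _ x.2)
  obtain ⟨H, e⟩ := exists_right_complement'_of_coprime (N := N) (c ▸ (Nat.Prime.coprime_iff_not_dvd Nat.prime_two).2 o)
  have nH : H.Normal := normal_of_index_eq_two (e.index_eq_card.trans c)
  have l : H.map (KL γ).subtype ≤ centralizer {zz γ} := by rintro _ ⟨x, -, rfl⟩; exact mcs (J.cK x.2)
  have b : H.map (KL γ).subtype = ⊥ := by
    rw [eq_bot_iff, ← hO, ← map_subgroupOf_eq_of_le l]
    refine map_mono (le_sSup ⟨(normal_subgroupOf_iff l).2 ?_, ?_⟩)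
    · rintro _ n ⟨x, p, rfl⟩ q
      obtain ⟨l, l1, k, k1, rfl⟩ := J.d n (cms q)
      refine ⟨_, nH.conj_mem x p ⟨k, k1⟩, ?_⟩
      change k * x * k⁻¹ = l * k * x * (l * k)⁻¹
      rw [← cj_of (mul_mem (mul_mem k1 x.2) (inv_mem k1) l l1)]; group
    · rw [Nat.card_congr (subgroupOfEquivOfLe l).toEquiv, card_subtype, ← e.symm.index_eq_card]
      exact ((Nat.Prime.coprime_iff_not_dvd Nat.prime_two).2 o).symm
  rw [map_eq_bot_iff_of_injective _ (subtype_injective _)] at b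
  have t := e.sup_eq_top
  rw [b, sup_bot_eq] at t
  refine ⟨J.g, le_antisymm (fun x p => mcs (cL J.g p)) fun x p => ?_⟩
  obtain ⟨l, l1, k, k1, rfl⟩ := J.d x (cms p)
  rcases n (t.ge (mem_top ⟨k, k1⟩)) with q | q
  · rw [show k = 1 from congrArg Subtype.val q, mul_one]; exact l1
  · exact mul_mem l1 (Set.mem_of_eq_of_mem q (zL J.g))

end St

theorem CH.iso [Finite G] (J : CH γ) (hi : ¬ IsIsolatedInvolution (zz γ)) : Spor.IsoCo3 G := by
  obtain ⟨x, g⟩ := J.exists_g0 hi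
  obtain ⟨a⟩ := g.equiv ((J.upd x).fin g)
  obtain ⟨b⟩ := T_equiv
  exact ⟨a.trans (b.symm.trans Leech.co3Equiv)⟩

end Cfsg.Lib.T3.Co
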